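import Cfsg.Agent.H566.G2.Defs

/-!
# S3509, `G₂(q)`: the cover rule for members preserving `F[e]` (helper547)
-/

set_option autoImplicit false
set_option linter.unusedSectionVars false
open Cfsg

namespace Cfsg.Agent.H547.G2

open Cfsg.Agent.H161.Oct Cfsg.Agent.H106.RC Cfsg.Agent.H566.G2 Cfsg.Agent.H327.RG MulAction
open scoped commutatorElement

/-- elements commuting with a perfect subgroup: `lift` of a perfect subgroup is perfect -/
theorem lift_perf {G Y : Type*} [Group G] [Group Y] {N : Subgroup G} (e : N ≃* Y) {L : Subgroup Y}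
    (h : ⁅L, L⁆ = L) : ⁅lift e L, lift e L⁆ = lift e L := by
  unfold lift
  rw [← Subgroup.map_commutator, ← Subgroup.map_commutator, h]

variable {F : Type} [Field F]

/-- `y` preserves `F[e]` : it normalises `MK e` -/
theorem norm_MK {e : V F} {y : AutO F} (hy : PK e y) {m : AutO F} (hm : m ∈ MK e) : y * m * y⁻¹ ∈ MK e := by
  obtain ⟨a, b, hab⟩ := hy
  rw [mem_MK] at hm ⊢
  have ho : ∀ g : AutO F, (g : V F ≃ₗ[F] V F) o = o := fun g => map_o g.2
  have hmo : ∀ c d : F, (m : V F ≃ₗ[F] V F) (c • o + d • e) = c • o + d • e := by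
    intro c d
    rw [map_add, map_smul, map_smul, ho, hm]
  have key : ∃ c d : F, (y : V F ≃ₗ[F] V F) (c • o + d • e) = e := by
    by_cases hb : b = 0
    · subst hb
      refine ⟨a, 0, ?_⟩
      rw [map_add, map_smul, map_smul, ho, zero_smul, add_zero]
      have h1 : (y : V F ≃ₗ[F] V F) e = (y : V F ≃ₗ[F] V F) (a • o) := by
        rw [hab, map_smul, ho, zero_smul, add_zero]
      exact ((y : V F ≃ₗ[F] V F).injective h1).symm
    · refine ⟨-(b⁻¹ * a), b⁻¹, ?_⟩
      rw [map_add, map_smul, map_smul, ho, hab, smul_add, smul_smul, smul_smul, inv_mul_cancel₀ hb, one_smul, neg_smul,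
        neg_add_cancel_left]
  obtain ⟨c, d, hcd⟩ := key
  have h1 : ((y⁻¹ : AutO F) : V F ≃ₗ[F] V F) e = c • o + d • e := by
    apply (y : V F ≃ₗ[F] V F).injective
    rw [hcd]
    exact (y : V F ≃ₗ[F] V F).apply_symm_apply e
  change (y : V F ≃ₗ[F] V F) ((m : V F ≃ₗ[F] V F) (((y⁻¹ : AutO F) : V F ≃ₗ[F] V F) e)) = e
  rw [h1, hmo, hcd]

section cover
variable {G Ω ι : Type} [Group G] [Finite G] [MulAction G Ω] [Finite Ω] [Nonempty Ω] [Finite ι] {N : Subgroup G}

/-- (A4) the cover rule: no cover by members preserving `F[e]` -/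
theorem rule_K [Finite F] (hC : ∀ (S : Type) [Group S] [Finite S], IsSimpleGroup S → ¬ IsMulCommutative S → Cl S → ¬ Exc S → RC S)
    (hE : Env G Ω N) (f : N ≃* AutO F) {e : V F} (he : MFacts e) {x : ι → G} {r : ι → ℕ} (hx : PF x r) (hcov : Cov Ω x)
    {y : ι → AutO F} (hy : ∀ i, x i = (f.symm (y i) : G)) (hK : ∀ i, PK e (y i)) : False := by
  obtain ⟨S', _, _, π, hπ, hker, h1, h2, h3, h4⟩ := he.quo
  have hmem : ∀ i, ∀ m ∈ MK e, x i * (f.symm m : G) * (x i)⁻¹ = (f.symm (y i * m * (y i)⁻¹) : G) := by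
    intro i m _
    rw [hy i, map_mul, map_mul, map_inv, Subgroup.coe_mul, Subgroup.coe_mul, Subgroup.coe_inv]
  have hstab : ∀ ω : Ω, lift f (MK e) ≤ stabilizer G ω ∨
      ∃ j, (∀ m ∈ lift f (MK e), x j * m = m * x j) ∧ x j • ω = ω := by
    intro ω
    refine mrule_RC h1 h2 x r hx.prime hx.inj hx.pow hx.comm (lift f (MK e)) (lift_perf f he.perf)
      (π.comp (liftEquiv f (MK e)).toMonoidHom) (hπ.comp (liftEquiv f (MK e)).surjective) ?_ ?_
      (hC S' h1 h2 h3 h4) ω ?_
    · intro m hm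
      have h5 : liftEquiv f (MK e) m ∈ Subgroup.center (MK e) := hker hm
      rw [Subgroup.mem_center_iff] at h5 ⊢
      intro g
      apply (liftEquiv f (MK e)).injective
      rw [map_mul, map_mul]
      exact h5 _
    · intro i
      have key : ∀ g : G, g ∈ lift f (MK e) → x i * g * (x i)⁻¹ ∈ lift f (MK e) := by
        intro g hg
        obtain ⟨m, hm, rfl⟩ := mem_lift.1 hg
        rw [hmem i m hm]
        exact mem_lift.2 ⟨_, norm_MK (hK i) hm, rfl⟩
      have key2 : ∀ n : ℕ, ∀ g : G, g ∈ lift f (MK e) → x i ^ n * g * (x i ^ n)⁻¹ ∈ lift f (MK e) := by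
        intro n
        induction n with
        | zero => intro g hg; simpa using hg
        | succ n ih =>
          intro g hg
          have := key _ (ih g hg)
          have h6 : x i ^ (n + 1) * g * (x i ^ (n + 1))⁻¹ = x i * (x i ^ n * g * (x i ^ n)⁻¹) * (x i)⁻¹ := by
            rw [pow_succ']; group
          rw [h6]
          exact this
      rw [Subgroup.mem_normalizer_iff]
      intro g
      refine ⟨key g, fun hg => ?_⟩
      have h7 : (x i)⁻¹ = x i ^ (r i - 1) := by
        rw [inv_eq_iff_mul_eq_one, ← pow_succ', Nat.sub_add_cancel (hx.prime i).one_lt.le, hx.pow]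
      have h8 := key2 (r i - 1) _ hg
      rw [← h7] at h8
      have h9 : (x i)⁻¹ * (x i * g * (x i)⁻¹) * ((x i)⁻¹)⁻¹ = g := by group
      rwa [h9] at h8
    · intro m _
      obtain ⟨i, hi⟩ := hcov (m • ω)
      exact ⟨i, hi⟩
  by_cases hJ : ∀ j, ¬ ∀ m ∈ lift f (MK e), x j * m = m * x j
  · refine no_cent hE hstab hJ ?_
    intro hb
    apply he.bot
    rw [eq_bot_iff]
    intro m hm
    have h5 : (f.symm m : G) ∈ lift f (MK e) := mem_lift.2 ⟨m, hm, rfl⟩
    rw [hb, Subgroup.mem_bot] at h5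
    have h6 : f.symm m = 1 := Subtype.ext h5
    rw [Subgroup.mem_bot]
    rw [← f.apply_symm_apply m, h6, map_one]
  · push Not at hJ
    obtain ⟨j, hj⟩ := hJ
    have hcen : ∀ i, (∀ m ∈ lift f (MK e), x i * m = m * x i) → y i ∈ MK e ∧ y i ^ 3 = 1 := by
      intro i hi
      apply he.cen
      intro m hm
      apply f.symm.injective
      apply Subtype.ext
      rw [map_mul, map_mul, Subgroup.coe_mul, Subgroup.coe_mul, ← hy i]
      exact hi _ (mem_lift.2 ⟨m, hm, rfl⟩)
    have hr3 : ∀ i, (∀ m ∈ lift f (MK e), x i * m = m * x i) → r i = 3 := by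
      intro i hi
      have h5 : x i ^ 3 = 1 := by
        rw [hy i, ← Subgroup.coe_pow, ← map_pow, (hcen i hi).2, map_one, Subgroup.coe_one]
      have : Fact (r i).Prime := ⟨hx.prime i⟩
      have h6 : orderOf (x i) = r i := orderOf_eq_prime (hx.pow i) (hx.ne i)
      have h7 : r i ∣ 3 := h6 ▸ orderOf_dvd_of_pow_eq_one h5
      exact (Nat.prime_dvd_prime_iff_eq (hx.prime i) Nat.prime_three).1 h7
    apply hx.ne j
    apply hE.single
    intro ω
    rcases hstab ω with h5 | ⟨i, hi, h5⟩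
    · have h6 : x j ∈ lift f (MK e) := by
        rw [hy j]
        exact mem_lift.2 ⟨y j, (hcen j hj).1, rfl⟩
      exact h5 h6
    · have h6 : i = j := hx.inj ((hr3 i hi).trans (hr3 j hj).symm)
      rw [← h6]
      exact h5

end cover

end Cfsg.Agent.H547.G2
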